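import Mathlib

/-!
Groups of order 320 with derived subgroup of order 64 and centre of that subgroup a four-group.
-/

set_option autoImplicit false

namespace CfsgLib.Ext320

open scoped commutatorElement Pointwise

variable {G : Type*} [Group G]

/-- The relations. -/
structure Data (a₀ a₁ a₂ a₃ z₁ z₂ c : G) : Prop where
  c5 : c ^ 5 = 1
  z11 : z₁ * z₁ = 1
  z22 : z₂ * z₂ = 1
  cz₁ : ∀ g, Commute z₁ g
  cz₂ : ∀ g, Commute z₂ g
  s₀ : a₀ * a₀ = z₁ * z₂
  s₁ : a₁ * a₁ = z₁ * z₂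
  s₂ : a₂ * a₂ = z₁ * z₂
  s₃ : a₃ * a₃ = z₁ * z₂
  c01 : ⁅a₀, a₁⁆ = z₁
  c02 : ⁅a₀, a₂⁆ = z₂
  c03 : ⁅a₀, a₃⁆ = z₂
  c12 : ⁅a₁, a₂⁆ = z₁
  c13 : ⁅a₁, a₃⁆ = z₂
  c23 : ⁅a₂, a₃⁆ = z₁
  m₀ : c * a₀ * c⁻¹ = a₁
  m₁ : c * a₁ * c⁻¹ = a₂
  m₂ : c * a₂ * c⁻¹ = a₃
  m₃ : c * a₃ * c⁻¹ = (a₀ * a₁ * a₂ * a₃)⁻¹

variable [Finite G] {a₀ a₁ a₂ a₃ z₁ z₂ c : G}

theorem card_sup_sq_le (A : Subgroup G) {x : G} (hx : x * x ∈ A)
    (hn : x ∈ Subgroup.normalizer (A : Set G)) :
    Nat.card ↥(A ⊔ Subgroup.zpowers x) ≤ 2 * Nat.card A := by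
  classical
  have h : ((A ⊔ Subgroup.zpowers x : Subgroup G) : Set G) = (A : Set G) * (Subgroup.zpowers x : Set G) :=
    Subgroup.coe_mul_of_right_le_normalizer_left A (Subgroup.zpowers x) (Subgroup.zpowers_le.2 hn)
  have hsub : ((A ⊔ Subgroup.zpowers x : Subgroup G) : Set G) ⊆ (A : Set G) * ({1, x} : Set G) := by
    rw [h]
    rintro _ ⟨a, ha, y, hy, rfl⟩
    rw [SetLike.mem_coe, ← mem_powers_iff_mem_zpowers] at hy
    obtain ⟨n, rfl⟩ := hy
    rcases Nat.even_or_odd n with ⟨m, rfl⟩ | ⟨m, rfl⟩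
    · refine ⟨a * (x * x) ^ m, A.mul_mem ha (A.pow_mem hx m), 1, by simp, ?_⟩
      simp only [← two_mul, pow_mul, pow_two, mul_one]
    · refine ⟨a * (x * x) ^ m, A.mul_mem ha (A.pow_mem hx m), x, by simp, ?_⟩
      simp only [pow_succ _ (2 * m), pow_mul, pow_two, mul_assoc]
  calc Nat.card ↥(A ⊔ Subgroup.zpowers x)
      ≤ Nat.card ↥((A : Set G) * ({1, x} : Set G)) := Nat.card_mono (Set.toFinite _) hsub
    _ ≤ Nat.card A * Nat.card ({1, x} : Set G) := Set.natCard_mul_le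
    _ ≤ Nat.card A * 2 := Nat.mul_le_mul_left _ (by
        rw [Nat.card_coe_set_eq]
        exact (Set.ncard_insert_le _ _).trans (by simp))
    _ = _ := Nat.mul_comm _ _

theorem mem_normalizer_closure {S : Set G} {a : G}
    (h : ∀ g ∈ S, a * g * a⁻¹ ∈ Subgroup.closure S) : a ∈ Subgroup.normalizer (Subgroup.closure S : Set G) := by
  rw [Subgroup.mem_normalizer_iff]
  have hle : (Subgroup.closure S).map (MulAut.conj a).toMonoidHom ≤ Subgroup.closure S := by
    rw [Subgroup.map_le_iff_le_comap]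
    exact (Subgroup.closure_le _).2 fun g hg => h g hg
  have heq : (Subgroup.closure S).map (MulAut.conj a).toMonoidHom = Subgroup.closure S :=
    Subgroup.eq_of_le_of_card_ge hle (Nat.card_congr
      ((Subgroup.closure S).equivMapOfInjective _ (MulAut.conj a).injective).toEquiv).le
  intro g
  constructor
  · exact fun hg => hle ⟨g, hg, rfl⟩
  · intro hg
    obtain ⟨y, hy, hye⟩ := heq.ge hg
    have : y = g := (MulAut.conj a).injective hye
    exact this ▸ hy

/-- The group generated by the `2`-part. -/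
def core (a₀ a₁ a₂ a₃ z₁ z₂ : G) : Subgroup G := Subgroup.closure {z₁, z₂, a₀, a₁, a₂, a₃}

theorem Data.card_core_le (h : Data a₀ a₁ a₂ a₃ z₁ z₂ c) :
    Nat.card (core a₀ a₁ a₂ a₃ z₁ z₂) ≤ 64 := by
  have swap : ∀ {x y z : G}, ⁅y, x⁆ = z → z * z = 1 → (∀ g, Commute z g) → x * y * x⁻¹ = z * y := by
    intro x y z e hz hc
    have e' : ⁅x, y⁆ = z := by
      rw [← commutatorElement_inv y x, e]; exact inv_eq_of_mul_eq_one_right hz
    rw [← e', commutatorElement_def]; group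
  have conjz : ∀ (x z : G), (∀ g, Commute z g) → x * z * x⁻¹ = z := by
    intro x z hc; rw [← (hc x).eq, mul_inv_cancel_right]
  set A₀ := Subgroup.closure ({z₁, z₂} : Set G)
  set A₁ := Subgroup.closure ({z₁, z₂, a₀} : Set G)
  set A₂ := Subgroup.closure ({z₁, z₂, a₀, a₁} : Set G)
  set A₃ := Subgroup.closure ({z₁, z₂, a₀, a₁, a₂} : Set G)
  have hA0 : Nat.card A₀ ≤ 4 := by
    have e : A₀ ≤ Subgroup.zpowers z₁ ⊔ Subgroup.zpowers z₂ := (Subgroup.closure_le _).2 (by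
      rintro g (rfl | hg)
      · exact Subgroup.mem_sup_left (Subgroup.mem_zpowers _)
      · rw [Set.mem_singleton_iff.1 hg]; exact Subgroup.mem_sup_right (Subgroup.mem_zpowers _))
    refine (Subgroup.card_le_of_le e).trans ((card_sup_sq_le _ (by rw [h.z22]; exact Subgroup.one_mem _) ?_).trans ?_)
    · refine Subgroup.centralizer_le_normalizer _ (Subgroup.mem_centralizer_iff.2 fun g _ => ((h.cz₂ g).eq).symm)
    · have : Nat.card (Subgroup.zpowers z₁) ≤ 2 := by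
        rw [Nat.card_zpowers]
        exact Nat.le_of_dvd two_pos (orderOf_dvd_of_pow_eq_one (by rw [pow_two, h.z11]))
      omega
  have step : ∀ (S : Set G) (x : G), z₁ ∈ S → z₂ ∈ S → x * x = z₁ * z₂ →
      (∀ g ∈ S, x * g * x⁻¹ = g ∨ x * g * x⁻¹ = z₁ * g ∨ x * g * x⁻¹ = z₂ * g) →
      Nat.card (Subgroup.closure (S ∪ {x})) ≤ 2 * Nat.card (Subgroup.closure S) := by
    intro S x h1 h2 hx hS
    rw [Subgroup.closure_union, ← Subgroup.zpowers_eq_closure]
    refine card_sup_sq_le _ (by rw [hx]; exact Subgroup.mul_mem _ (Subgroup.subset_closure h1) (Subgroup.subset_closure h2))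
      (mem_normalizer_closure fun g hg => ?_)
    rcases hS g hg with e | e | e <;> rw [e]
    · exact Subgroup.subset_closure hg
    · exact Subgroup.mul_mem _ (Subgroup.subset_closure h1) (Subgroup.subset_closure hg)
    · exact Subgroup.mul_mem _ (Subgroup.subset_closure h2) (Subgroup.subset_closure hg)
  have hA1 : Nat.card A₁ ≤ 2 * Nat.card A₀ := by
    refine le_trans (le_of_eq ?_) (step {z₁, z₂} a₀ (by simp) (by simp) h.s₀ ?_)
    · simp only [A₁, Set.insert_union, Set.singleton_union]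
    · rintro g (rfl | rfl)
      · exact Or.inl (conjz _ _ h.cz₁)
      · exact Or.inl (conjz _ _ h.cz₂)
  have hA2 : Nat.card A₂ ≤ 2 * Nat.card A₁ := by
    refine le_trans (le_of_eq ?_) (step {z₁, z₂, a₀} a₁ (by simp) (by simp) h.s₁ ?_)
    · simp only [A₂, Set.insert_union, Set.singleton_union]
    · rintro g (rfl | rfl | rfl)
      · exact Or.inl (conjz _ _ h.cz₁)
      · exact Or.inl (conjz _ _ h.cz₂)
      · exact Or.inr (Or.inl (swap h.c01 h.z11 h.cz₁))
  have hA3 : Nat.card A₃ ≤ 2 * Nat.card A₂ := by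
    refine le_trans (le_of_eq ?_) (step {z₁, z₂, a₀, a₁} a₂ (by simp) (by simp) h.s₂ ?_)
    · simp only [A₃, Set.insert_union, Set.singleton_union]
    · rintro g (rfl | rfl | rfl | rfl)
      · exact Or.inl (conjz _ _ h.cz₁)
      · exact Or.inl (conjz _ _ h.cz₂)
      · exact Or.inr (Or.inr (swap h.c02 h.z22 h.cz₂))
      · exact Or.inr (Or.inl (swap h.c12 h.z11 h.cz₁))
  have hA4 : Nat.card (core a₀ a₁ a₂ a₃ z₁ z₂) ≤ 2 * Nat.card A₃ := by
    refine le_trans (le_of_eq ?_) (step {z₁, z₂, a₀, a₁, a₂} a₃ (by simp) (by simp) h.s₃ ?_)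
    · simp only [core, Set.insert_union, Set.singleton_union]
    · rintro g (rfl | rfl | rfl | rfl | rfl)
      · exact Or.inl (conjz _ _ h.cz₁)
      · exact Or.inl (conjz _ _ h.cz₂)
      · exact Or.inr (Or.inr (swap h.c03 h.z22 h.cz₂))
      · exact Or.inr (Or.inr (swap h.c13 h.z22 h.cz₂))
      · exact Or.inr (Or.inl (swap h.c23 h.z11 h.cz₁))
  omega

theorem Data.card_closure_le (h : Data a₀ a₁ a₂ a₃ z₁ z₂ c) :
    Nat.card (Subgroup.closure ({z₁, z₂, a₀, a₁, a₂, a₃, c} : Set G)) ≤ 320 := by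
  set P := core a₀ a₁ a₂ a₃ z₁ z₂
  have hm : ∀ x ∈ ({z₁, z₂, a₀, a₁, a₂, a₃} : Set G), x ∈ P := fun x hx => Subgroup.subset_closure hx
  have hn : c ∈ Subgroup.normalizer (P : Set G) := mem_normalizer_closure (by
    rintro g (rfl | rfl | rfl | rfl | rfl | rfl)
    · rw [← (h.cz₁ c).eq, mul_inv_cancel_right]; exact hm _ (by simp)
    · rw [← (h.cz₂ c).eq, mul_inv_cancel_right]; exact hm _ (by simp)
    · rw [h.m₀]; exact hm _ (by simp)
    · rw [h.m₁]; exact hm _ (by simp)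
    · rw [h.m₂]; exact hm _ (by simp)
    · rw [h.m₃]
      exact P.inv_mem (P.mul_mem (P.mul_mem (P.mul_mem (hm _ (by simp)) (hm _ (by simp))) (hm _ (by simp)))
        (hm _ (by simp))))
  have e : Subgroup.closure ({z₁, z₂, a₀, a₁, a₂, a₃, c} : Set G) ≤ P ⊔ Subgroup.zpowers c :=
    (Subgroup.closure_le _).2 (by
      rintro g (rfl | rfl | rfl | rfl | rfl | rfl | rfl)
      · exact Subgroup.mem_sup_left (hm _ (by simp))
      · exact Subgroup.mem_sup_left (hm _ (by simp))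
      · exact Subgroup.mem_sup_left (hm _ (by simp))
      · exact Subgroup.mem_sup_left (hm _ (by simp))
      · exact Subgroup.mem_sup_left (hm _ (by simp))
      · exact Subgroup.mem_sup_left (hm _ (by simp))
      · exact Subgroup.mem_sup_right (Subgroup.mem_zpowers _))
  refine (Subgroup.card_le_of_le e).trans ?_
  have hc : ((P ⊔ Subgroup.zpowers c : Subgroup G) : Set G) = (P : Set G) * (Subgroup.zpowers c : Set G) :=
    Subgroup.coe_mul_of_right_le_normalizer_left P (Subgroup.zpowers c) (Subgroup.zpowers_le.2 hn)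
  calc Nat.card ↥(P ⊔ Subgroup.zpowers c)
      = Nat.card ↥((P : Set G) * (Subgroup.zpowers c : Set G)) := by rw [← hc]; rfl
    _ ≤ Nat.card P * Nat.card (Subgroup.zpowers c) := Set.natCard_mul_le
    _ ≤ 64 * 5 := Nat.mul_le_mul h.card_core_le (by
        rw [Nat.card_zpowers]; exact Nat.le_of_dvd (by norm_num) (orderOf_dvd_of_pow_eq_one h.c5))

/-- Two groups of order 320 generated by such elements are isomorphic. -/
theorem nonempty_equiv {U : Type*} [Group U] [Finite U] {b₀ b₁ b₂ b₃ w₁ w₂ d : U}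
    (h : Data a₀ a₁ a₂ a₃ z₁ z₂ c) (h' : Data b₀ b₁ b₂ b₃ w₁ w₂ d)
    (hgen : Subgroup.closure ({z₁, z₂, a₀, a₁, a₂, a₃, c} : Set G) = ⊤) (hcard : Nat.card G = 320)
    (hgen' : Subgroup.closure ({w₁, w₂, b₀, b₁, b₂, b₃, d} : Set U) = ⊤) (hcard' : Nat.card U = 320) :
    Nonempty (G ≃* U) := by
  let S : Set (G × U) := {(z₁, w₁), (z₂, w₂), (a₀, b₀), (a₁, b₁), (a₂, b₂), (a₃, b₃), (c, d)}
  set K := Subgroup.closure S with hK
  have hp : Data (G := G × U) (a₀, b₀) (a₁, b₁) (a₂, b₂) (a₃, b₃) (z₁, w₁) (z₂, w₂) (c, d) :=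
    { c5 := Prod.ext h.c5 h'.c5
      z11 := Prod.ext h.z11 h'.z11
      z22 := Prod.ext h.z22 h'.z22
      cz₁ := fun g => Prod.ext (h.cz₁ g.1) (h'.cz₁ g.2)
      cz₂ := fun g => Prod.ext (h.cz₂ g.1) (h'.cz₂ g.2)
      s₀ := Prod.ext h.s₀ h'.s₀
      s₁ := Prod.ext h.s₁ h'.s₁
      s₂ := Prod.ext h.s₂ h'.s₂
      s₃ := Prod.ext h.s₃ h'.s₃
      c01 := Prod.ext h.c01 h'.c01
      c02 := Prod.ext h.c02 h'.c02
      c03 := Prod.ext h.c03 h'.c03
      c12 := Prod.ext h.c12 h'.c12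
      c13 := Prod.ext h.c13 h'.c13
      c23 := Prod.ext h.c23 h'.c23
      m₀ := Prod.ext h.m₀ h'.m₀
      m₁ := Prod.ext h.m₁ h'.m₁
      m₂ := Prod.ext h.m₂ h'.m₂
      m₃ := Prod.ext h.m₃ h'.m₃ }
  have hle : Nat.card K ≤ 320 := hp.card_closure_le
  let p₁ := (MonoidHom.fst G U).comp K.subtype
  let p₂ := (MonoidHom.snd G U).comp K.subtype
  have hs₁ : Function.Surjective p₁ := by
    rw [← MonoidHom.range_eq_top, eq_top_iff, ← hgen, Subgroup.closure_le]
    intro g hg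
    simp only [Set.mem_insert_iff, Set.mem_singleton_iff] at hg
    rcases hg with rfl | rfl | rfl | rfl | rfl | rfl | rfl <;>
      exact ⟨⟨(_, _), Subgroup.subset_closure (by simp only [S, Set.mem_insert_iff, Set.mem_singleton_iff]; tauto)⟩, rfl⟩
  have hs₂ : Function.Surjective p₂ := by
    rw [← MonoidHom.range_eq_top, eq_top_iff, ← hgen', Subgroup.closure_le]
    intro g hg
    simp only [Set.mem_insert_iff, Set.mem_singleton_iff] at hg
    rcases hg with rfl | rfl | rfl | rfl | rfl | rfl | rfl <;>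
      exact ⟨⟨(_, _), Subgroup.subset_closure (by simp only [S, Set.mem_insert_iff, Set.mem_singleton_iff]; tauto)⟩, rfl⟩
  have hb₁ : Function.Bijective p₁ := (Nat.bijective_iff_surjective_and_card _).2
    ⟨hs₁, le_antisymm (hle.trans hcard.ge) (Nat.card_le_card_of_surjective _ hs₁)⟩
  have hb₂ : Function.Bijective p₂ := (Nat.bijective_iff_surjective_and_card _).2
    ⟨hs₂, le_antisymm (hle.trans hcard'.ge) (Nat.card_le_card_of_surjective _ hs₂)⟩
  exact ⟨(MulEquiv.ofBijective p₁ hb₁).symm.trans (MulEquiv.ofBijective p₂ hb₂)⟩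

/-- An invariant subgroup under an automorphism of order dividing five without fixed points. -/
theorem card_mod_five {Q : Type*} [Group Q] [Finite Q] (τ : MulAut Q) (h5 : ∀ q, τ (τ (τ (τ (τ q)))) = q)
    (N : Subgroup Q) (hN : ∀ q ∈ N, τ q ∈ N) :
    Nat.card {q : N // τ (q : Q) = q} % 5 = Nat.card N % 5 := by
  classical
  haveI : Fintype N := Fintype.ofFinite N
  haveI : Fact (Nat.Prime 5) := ⟨by norm_num⟩
  let σ : Equiv.Perm N :=
    { toFun := fun s => ⟨τ s, hN s s.2⟩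
      invFun := fun s => ⟨τ (τ (τ (τ s))), hN _ (hN _ (hN _ (hN s s.2)))⟩
      left_inv := fun s => Subtype.ext (h5 s)
      right_inv := fun s => Subtype.ext (h5 s) }
  have hσ : σ ^ 5 ^ 1 = 1 := by
    refine Equiv.ext fun s => Subtype.ext ?_
    show τ (τ (τ (τ (τ (s : Q))))) = s
    exact h5 s
  have h1 := Equiv.Perm.card_compl_support_modEq hσ
  have h2 : σ.supportᶜ = Finset.univ.filter fun q : N => τ (q : Q) = q := by
    ext s
    simp only [Finset.mem_compl, Equiv.Perm.mem_support, not_not, Finset.mem_filter, Finset.mem_univ, true_and]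
    exact ⟨fun e => congrArg Subtype.val e, fun e => Subtype.ext e⟩
  rw [h2, ← Nat.card_eq_fintype_card] at h1
  rw [Nat.subtype_card (Finset.univ.filter fun q : N => τ (q : Q) = q) (by simp)]
  exact h1

/-- The hypotheses give the relations. -/
theorem exists_data (hG : Nat.card G = 320) (hD : Nat.card (commutator G) = 64)
    (hZ : IsKleinFour (Subgroup.center (commutator G))) :
    ∃ a₀ a₁ a₂ a₃ z₁ z₂ c : G, Data a₀ a₁ a₂ a₃ z₁ z₂ c ∧
      Subgroup.closure ({z₁, z₂, a₀, a₁, a₂, a₃, c} : Set G) = ⊤ := by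
  classical
  haveI : Fact (Nat.Prime 2) := ⟨Nat.prime_two⟩
  haveI : Fact (Nat.Prime 5) := ⟨by norm_num⟩
  set D := commutator G with hDdef
  obtain ⟨c, hc⟩ := exists_prime_orderOf_dvd_card' 5 (show 5 ∣ Nat.card G by rw [hG]; norm_num)
  have hc5 : c ^ 5 = 1 := hc ▸ pow_orderOf_eq_one c
  have htop : D ⊔ Subgroup.zpowers c = ⊤ := by
    apply Subgroup.eq_top_of_card_eq
    refine Nat.dvd_antisymm (Subgroup.card_subgroup_dvd_card _) ?_
    rw [hG, show 320 = 64 * 5 by norm_num]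
    refine Nat.Coprime.mul_dvd_of_dvd_of_dvd (by norm_num) ?_ ?_
    · exact hD ▸ Subgroup.card_dvd_of_le le_sup_left
    · exact dvd_trans (dvd_of_eq (by rw [Nat.card_zpowers, hc])) (Subgroup.card_dvd_of_le le_sup_right)
  haveI : D.Normal := inferInstanceAs (commutator G).Normal
  let θ : MulAut D := MulAut.conjNormal c
  have hθ : ∀ x : D, (θ x : G) = c * x * c⁻¹ := fun x => rfl
  have hθ5 : ∀ x, θ (θ (θ (θ (θ x)))) = x := by
    intro x
    apply Subtype.ext
    simp only [hθ]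
    calc c * (c * (c * (c * (c * (x : G) * c⁻¹) * c⁻¹) * c⁻¹) * c⁻¹) * c⁻¹ = c ^ 5 * (x : G) * (c ^ 5)⁻¹ := by
          simp only [pow_succ, pow_zero, one_mul, mul_inv_rev, mul_assoc]
      _ = x := by rw [hc5, one_mul, inv_one, mul_one]
  set Z := Subgroup.center D with hZdef
  have hZ4 : Nat.card Z = 4 := hZ.card_four
  have hZsq : ∀ z : D, z ∈ Z → z * z = 1 := fun z hz => congrArg Subtype.val (hZ.mul_self ⟨z, hz⟩)
  have hθZ : ∀ z ∈ Z, θ z ∈ Z := by
    intro z hz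
    rw [hZdef, Subgroup.mem_center_iff] at hz ⊢
    intro g
    obtain ⟨g, rfl⟩ := θ.surjective g
    rw [← map_mul, ← map_mul, hz]
  have hfixZ : ∀ z ∈ Z, θ z = z := by
    let σ : Equiv.Perm Z :=
      { toFun := fun s => ⟨θ s, hθZ s s.2⟩
        invFun := fun s => ⟨θ (θ (θ (θ s))), hθZ _ (hθZ _ (hθZ _ (hθZ s s.2)))⟩
        left_inv := fun s => Subtype.ext (hθ5 s)
        right_inv := fun s => Subtype.ext (hθ5 s) }
    have h1 : orderOf σ ∣ 5 := orderOf_dvd_of_pow_eq_one (Equiv.ext fun s => Subtype.ext (by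
      show θ (θ (θ (θ (θ (s : D))))) = s
      exact hθ5 s))
    have h2 : orderOf σ ∣ 24 := by
      have := orderOf_dvd_natCard σ
      rwa [Nat.card_perm, hZ4] at this
    have : σ = 1 := orderOf_eq_one_iff.1 (Nat.eq_one_of_dvd_coprimes (by norm_num) h1 h2)
    intro z hz
    exact congrArg (fun s : Equiv.Perm Z => ((s ⟨z, hz⟩ : Z) : D)) this
  -- the action on the quotient by the centre
  let π : D →* D ⧸ Z := QuotientGroup.mk' Z
  have hπs : Function.Surjective π := QuotientGroup.mk'_surjective Z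
  have hπ : ∀ x, π x = 1 ↔ x ∈ Z := fun x => QuotientGroup.eq_one_iff x
  let τ : MulAut (D ⧸ Z) := QuotientGroup.congr Z Z θ (by
    refine Subgroup.eq_of_le_of_card_ge ?_ (Nat.card_congr (Z.equivMapOfInjective _ θ.injective).toEquiv).le
    rintro _ ⟨z, hz, rfl⟩; exact hθZ z hz)
  have hτ : ∀ x, τ (π x) = π (θ x) := fun x => rfl
  have hτ5 : ∀ q, τ (τ (τ (τ (τ q)))) = q := fun q => by
    obtain ⟨x, rfl⟩ := hπs q; simp only [hτ, hθ5]
  have hcardQ : Nat.card (D ⧸ Z) = 16 := by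
    have := Subgroup.card_eq_card_quotient_mul_card_subgroup Z
    rw [hD, hZ4] at this; omega
  have hDp : IsPGroup 2 D := IsPGroup.of_card (n := 6) (by rw [hD]; norm_num)
  have hcardN : ∀ N : Subgroup (D ⧸ Z), ∃ k ≤ 4, Nat.card N = 2 ^ k := fun N =>
    (Nat.dvd_prime_pow Nat.prime_two).1 ((Subgroup.card_subgroup_dvd_card N).trans (dvd_of_eq (by rw [hcardQ]; norm_num)))
  have hτfix : ∀ q, τ q = q → q = 1 := by
    let Fx : Subgroup (D ⧸ Z) :=
      { carrier := {q | τ q = q}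
        one_mem' := map_one τ
        mul_mem' := fun {a b} ha hb => by show τ (a * b) = a * b; rw [map_mul, show τ a = a from ha, show τ b = b from hb]
        inv_mem' := fun {a} ha => by show τ a⁻¹ = a⁻¹; rw [map_inv, show τ a = a from ha] }
    have hmod := card_mod_five τ hτ5 ⊤ (fun q _ => Subgroup.mem_top _)
    have he : Nat.card {q : (⊤ : Subgroup (D ⧸ Z)) // τ (q : D ⧸ Z) = q} = Nat.card Fx :=
      Nat.card_congr ⟨fun q => ⟨q.1.1, q.2⟩, fun q => ⟨⟨q.1, Subgroup.mem_top _⟩, q.2⟩, fun _ => rfl, fun _ => rfl⟩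
    rw [he, Subgroup.card_top, hcardQ] at hmod
    obtain ⟨k, hk, hk'⟩ := hcardN Fx
    rw [hk'] at hmod
    interval_cases k
    · intro q hq
      have h1 : Fx = ⊥ := Subgroup.card_eq_one.1 (by rw [hk']; norm_num)
      exact Subgroup.mem_bot.1 (h1.le hq)
    all_goals first | omega | skip
    -- the element would centralise everything
    exfalso
    have hFtop : Fx = ⊤ := Subgroup.eq_top_of_card_eq _ (by rw [hk', hcardQ]; norm_num)
    have hcent : ∀ x : D, θ x = x := by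
      intro x
      have hx : τ (π x) = π x := (hFtop.ge (Subgroup.mem_top (π x)) : π x ∈ Fx)
      rw [hτ, eq_comm, QuotientGroup.mk'_apply, QuotientGroup.mk'_apply, QuotientGroup.eq] at hx
      set z := x⁻¹ * θ x with hz
      have e : θ x = x * z := by rw [hz, mul_inv_cancel_left]
      have h5 := hθ5 x
      simp only [e, map_mul, hfixZ z hx] at h5
      have : z * z * z * z * z = 1 := mul_eq_left.1 (by simpa only [mul_assoc] using h5)
      rw [hZsq z hx, one_mul, hZsq z hx, one_mul] at this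
      rw [e, this, mul_one]
    have hle : commutator G ≤ (commutator D).map D.subtype := by
      rw [commutator_eq_closure, Subgroup.closure_le]
      rintro _ ⟨g, h, rfl⟩
      have hg : g ∈ D ⊔ Subgroup.zpowers c := htop.ge (Subgroup.mem_top g)
      have hh : h ∈ D ⊔ Subgroup.zpowers c := htop.ge (Subgroup.mem_top h)
      obtain ⟨d, hd, y, hy, rfl⟩ := Subgroup.mem_sup_of_normal_left.1 hg
      obtain ⟨e, he', w, hw, rfl⟩ := Subgroup.mem_sup_of_normal_left.1 hh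
      obtain ⟨i, rfl⟩ := Subgroup.mem_zpowers_iff.1 hy
      obtain ⟨j, rfl⟩ := Subgroup.mem_zpowers_iff.1 hw
      have hcomm : ∀ f ∈ D, Commute c f := fun f hf => by
        have := congrArg Subtype.val (hcent ⟨f, hf⟩)
        rw [hθ] at this
        exact mul_inv_eq_iff_eq_mul.1 this
      refine ⟨⁅(⟨d, hd⟩ : D), ⟨e, he'⟩⁆, ?_, ?_⟩
      · rw [commutator_eq_closure]; exact Subgroup.subset_closure (commutator_mem_commutatorSet _ _)
      · show ⁅d, e⁆ = ⁅d * c ^ i, e * c ^ j⁆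
        have h1 : Commute (c ^ i) e := ((hcomm e he').zpow_left i)
        have h2 : Commute (c ^ j) d := ((hcomm d hd).zpow_left j)
        have h3 : Commute (c ^ i) (c ^ j) := (Commute.refl c).zpow_zpow i j
        simp only [commutatorElement_def, mul_inv_rev]
        symm
        calc d * c ^ i * (e * c ^ j) * ((c ^ i)⁻¹ * d⁻¹) * ((c ^ j)⁻¹ * e⁻¹)
            = d * (c ^ i * e) * c ^ j * (c ^ i)⁻¹ * d⁻¹ * (c ^ j)⁻¹ * e⁻¹ := by group
          _ = d * e * (c ^ i * c ^ j) * (c ^ i)⁻¹ * d⁻¹ * (c ^ j)⁻¹ * e⁻¹ := by rw [h1.eq]; group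
          _ = d * e * (c ^ j * d⁻¹) * (c ^ j)⁻¹ * e⁻¹ := by rw [h3.eq]; group
          _ = d * e * d⁻¹ * e⁻¹ := by rw [h2.inv_right.eq]; group
    haveI : Nontrivial D := Finite.one_lt_card_iff_nontrivial.1 (by rw [hD]; norm_num)
    haveI : Group.IsNilpotent D := hDp.isNilpotent
    have hlt := Group.IsSolvable.commutator_lt_top_of_nontrivial (G := D)
    refine hlt.ne (eq_top_iff.2 fun x _ => ?_)
    obtain ⟨y, hy, hye⟩ := hle x.2
    exact (Subtype.ext hye : y = x) ▸ hy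
  have hinv : ∀ N : Subgroup (D ⧸ Z), (∀ q ∈ N, τ q ∈ N) → N = ⊥ ∨ N = ⊤ := by
    intro N hN
    have hmod := card_mod_five τ hτ5 N hN
    have h1 : Nat.card {q : N // τ (q : D ⧸ Z) = q} = 1 := by
      rw [Nat.card_eq_one_iff_unique]
      refine ⟨⟨fun a b => Subtype.ext (Subtype.ext ((hτfix _ a.2).trans (hτfix _ b.2).symm))⟩,
        ⟨⟨1, map_one τ⟩⟩⟩
    rw [h1] at hmod
    obtain ⟨k, hk, hk'⟩ := hcardN N
    rw [hk'] at hmod
    interval_cases k
    · exact Or.inl (Subgroup.card_eq_one.1 (by rw [hk']; norm_num))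
    all_goals first | omega | exact Or.inr (Subgroup.eq_top_of_card_eq _ (by rw [hk', hcardQ]; norm_num))
  have hQp : IsPGroup 2 (D ⧸ Z) := hDp.to_quotient Z
  haveI hQnt : Nontrivial (D ⧸ Z) := Finite.one_lt_card_iff_nontrivial.1 (by rw [hcardQ]; norm_num)
  have hQcomm : ∀ p q : D ⧸ Z, p * q = q * p := by
    rcases hinv (Subgroup.center (D ⧸ Z)) (fun q hq => by
      rw [Subgroup.mem_center_iff] at hq ⊢
      intro g
      obtain ⟨g, rfl⟩ := τ.surjective g
      rw [← map_mul, ← map_mul, hq]) with e | e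
    · exact absurd e ((Subgroup.nontrivial_iff_ne_bot _).1 hQp.center_nontrivial)
    · exact fun p q => Subgroup.mem_center_iff.1 (e.ge (Subgroup.mem_top q)) p
  have hQsq : ∀ q : D ⧸ Z, q * q = 1 := by
    let f : D ⧸ Z →* D ⧸ Z := MonoidHom.mk' (fun q => q * q) (fun p q => by
      calc p * q * (p * q) = p * (q * p) * q := by simp only [mul_assoc]
        _ = p * (p * q) * q := by rw [hQcomm q p]
        _ = _ := by simp only [mul_assoc])
    rcases hinv f.range (by rintro _ ⟨q, rfl⟩; exact ⟨τ q, by show τ q * τ q = _; rw [← map_mul]; rfl⟩) with e | e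
    · exact fun q => Subgroup.mem_bot.1 (e.le ⟨q, rfl⟩)
    · exfalso
      have hinj := (Finite.injective_iff_surjective.2 (MonoidHom.range_eq_top.1 e))
      obtain ⟨q, hq⟩ := exists_prime_orderOf_dvd_card' 2 (show 2 ∣ Nat.card (D ⧸ Z) by rw [hcardQ]; norm_num)
      have : f q = f 1 := by
        show q * q = 1 * 1
        rw [← pow_two, ← hq, pow_orderOf_eq_one, one_mul]
      rw [hinj this, orderOf_one] at hq
      omega
  have hcomm : ∀ x y : D, ⁅x, y⁆ ∈ Z := fun x y => by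
    rw [← hπ, map_commutatorElement, commutatorElement_eq_one_iff_mul_comm, hQcomm]
  have hsq : ∀ x : D, x * x ∈ Z := fun x => by rw [← hπ, map_mul, hQsq]
  have hsymm : ∀ x y : D, ⁅y, x⁆ = ⁅x, y⁆ := fun x y => by
    rw [← commutatorElement_inv x y]
    exact inv_eq_of_mul_eq_one_right (hZsq _ (hcomm x y))
  have hleft : ∀ r s t : D, ⁅r * s, t⁆ = ⁅r, t⁆ * ⁅s, t⁆ := fun r s t => by
    have hc' := Subgroup.mem_center_iff.1 (hcomm s t)
    have e : ⁅r * s, t⁆ = r * ⁅s, t⁆ * r⁻¹ * ⁅r, t⁆ := by simp only [commutatorElement_def]; group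
    rw [e, hc' r, mul_inv_cancel_right, ← hc']
  have hsqmul : ∀ s t : D, s * t * (s * t) = s * s * (t * t) * ⁅t, s⁆ := fun s t => by
    have hc' := Subgroup.mem_center_iff.1 (hcomm t s)
    calc s * t * (s * t) = s * (⁅t, s⁆ * (s * t)) * t := by simp only [commutatorElement_def]; group
      _ = s * ((s * t) * ⁅t, s⁆) * t := by rw [hc' (s * t)]
      _ = s * s * t * (⁅t, s⁆ * t) := by group
      _ = _ := by rw [← hc' t]; group
  -- the generators
  obtain ⟨q₀, hq₀⟩ := exists_ne (1 : D ⧸ Z)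
  obtain ⟨x, rfl⟩ := hπs q₀
  set b₀ : D := x⁻¹ * θ x with hb₀
  have hb₀Z : b₀ ∉ Z := fun hb => hq₀ (hτfix _ (by
    rw [hτ, eq_comm, QuotientGroup.mk'_apply, QuotientGroup.mk'_apply, QuotientGroup.eq]; exact hb))
  set b₁ := θ b₀ with hb₁
  set b₂ := θ b₁ with hb₂
  set b₃ := θ b₂ with hb₃
  set b₄ := θ b₃ with hb₄
  have hb5 : θ b₄ = b₀ := by rw [hb₄, hb₃, hb₂, hb₁, hθ5]
  have hprod : b₀ * b₁ * b₂ * b₃ * b₄ = 1 := by
    simp only [hb₄, hb₃, hb₂, hb₁, hb₀, map_mul, map_inv, hθ5]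
    group
  set y₁ := ⁅b₀, b₁⁆ with hy₁
  set y₂ := ⁅b₀, b₂⁆ with hy₂
  have hy₁Z := hcomm b₀ b₁
  have hy₂Z := hcomm b₀ b₂
  have shift : ∀ u v : D, ⁅θ u, θ v⁆ = ⁅u, v⁆ := fun u v => by
    rw [← map_commutatorElement]; exact hfixZ _ (hcomm u v)
  have h12 : ⁅b₁, b₂⁆ = y₁ := by rw [hb₂, hb₁]; exact shift _ _
  have h13 : ⁅b₁, b₃⁆ = y₂ := by rw [hb₃, hb₁]; exact shift _ _
  have h23 : ⁅b₂, b₃⁆ = y₁ := by rw [hb₃]; conv_lhs => arg 1; rw [hb₂]
                                 rw [shift]; exact h12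
  have h24 : ⁅b₂, b₄⁆ = y₂ := by rw [hb₄]; conv_lhs => arg 1; rw [hb₂]
                                 rw [shift]; exact h13
  have h34 : ⁅b₃, b₄⁆ = y₁ := by rw [hb₄]; conv_lhs => arg 1; rw [hb₃]
                                 rw [shift]; exact h23
  have h03 : ⁅b₀, b₃⁆ = y₂ := by
    rw [hsymm b₃ b₀, ← h24, ← shift b₂ b₄, hb5, ← hb₃]
  have h04 : ⁅b₀, b₄⁆ = y₁ := by
    rw [hsymm b₄ b₀, ← h34, ← shift b₃ b₄, hb5, ← hb₄]
  set s := b₀ * b₀ with hs_def
  have hsZ := hsq b₀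
  have hs : ∀ u, u * u = s → θ u * θ u = s := fun u hu => by rw [← map_mul, hu]; exact hfixZ _ hsZ
  have hs₁ : b₁ * b₁ = s := hs _ rfl
  have hs₂ : b₂ * b₂ = s := hs _ hs₁
  have hs₃ : b₃ * b₃ = s := hs _ hs₂
  have hs₄ : b₄ * b₄ = s := hs _ hs₃
  have hy₁₁ := hZsq _ hy₁Z
  have hy₂₂ := hZsq _ hy₂Z
  have hss := hZsq _ hsZ
  have hsval : s = y₁ * y₂ := by
    have e4 : b₀ * b₁ * b₂ * b₃ = b₄⁻¹ := eq_inv_of_mul_eq_one_left hprod
    have e5 : (b₀ * b₁ * b₂ * b₃) * (b₀ * b₁ * b₂ * b₃) = s := by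
      rw [e4, ← mul_inv_rev, hs₄]
      exact inv_eq_of_mul_eq_one_right hss
    rw [hsqmul, hsqmul, hsqmul, hs₁, hs₂, hs₃, ← hs_def] at e5
    rw [hsymm (b₀ * b₁ * b₂) b₃, hsymm (b₀ * b₁) b₂, hsymm b₀ b₁, hleft (b₀ * b₁) b₂ b₃, hleft b₀ b₁ b₂, hleft b₀ b₁ b₃,
      h03, h13, h23, ← hy₂, h12, ← hy₁] at e5
    have c12 := Subgroup.mem_center_iff.1 hy₁Z y₂
    -- collect
    have e6 : s * s * y₁ * s * (y₂ * y₁) * s * (y₂ * y₂ * y₁) = s := e5
    rw [hss, one_mul, hy₂₂, one_mul] at e6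
    have cs := Subgroup.mem_center_iff.1 hsZ
    calc s = y₁ * s * (y₂ * y₁) * s * y₁ := e6.symm
      _ = y₁ * (s * (y₂ * y₁)) * s * y₁ := by simp only [mul_assoc]
      _ = y₁ * ((y₂ * y₁) * s) * s * y₁ := by rw [cs (y₂ * y₁)]
      _ = y₁ * (y₂ * y₁) * (s * s) * y₁ := by simp only [mul_assoc]
      _ = y₁ * y₂ * (y₁ * y₁) := by rw [hss, mul_one]; simp only [mul_assoc]
      _ = _ := by rw [hy₁₁, mul_one]
  have hcen : ∀ z ∈ Z, ∀ g : G, Commute (z : G) g := by
    intro z hz g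
    have hgm : g ∈ D ⊔ Subgroup.zpowers c := htop.ge (Subgroup.mem_top g)
    have hle : D ⊔ Subgroup.zpowers c ≤ Subgroup.centralizer ({(z : G)} : Set G) := by
      refine sup_le (fun d hd => Subgroup.mem_centralizer_singleton_iff.2 ?_) (Subgroup.zpowers_le.2 ?_)
      · exact congrArg Subtype.val (Subgroup.mem_center_iff.1 hz ⟨d, hd⟩)
      · refine Subgroup.mem_centralizer_singleton_iff.2 ?_
        have := congrArg Subtype.val (hfixZ z hz)
        rw [hθ] at this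
        exact mul_inv_eq_iff_eq_mul.1 this
    exact (Subgroup.mem_centralizer_singleton_iff.1 (hle hgm)).symm
  refine ⟨b₀, b₁, b₂, b₃, y₁, y₂, c,
    { c5 := hc5
      z11 := congrArg Subtype.val hy₁₁
      z22 := congrArg Subtype.val hy₂₂
      cz₁ := hcen _ hy₁Z
      cz₂ := hcen _ hy₂Z
      s₀ := congrArg Subtype.val hsval
      s₁ := congrArg Subtype.val (hs₁.trans hsval)
      s₂ := congrArg Subtype.val (hs₂.trans hsval)
      s₃ := congrArg Subtype.val (hs₃.trans hsval)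
      c01 := rfl
      c02 := rfl
      c03 := congrArg Subtype.val h03
      c12 := congrArg Subtype.val h12
      c13 := congrArg Subtype.val h13
      c23 := congrArg Subtype.val h23
      m₀ := rfl
      m₁ := rfl
      m₂ := rfl
      m₃ := (congrArg Subtype.val (eq_inv_of_mul_eq_one_right hprod) : _) }, ?_⟩
  set K := Subgroup.closure ({(y₁ : G), (y₂ : G), (b₀ : G), (b₁ : G), (b₂ : G), (b₃ : G), c} : Set G) with hK
  have hm : ∀ g ∈ ({(y₁ : G), (y₂ : G), (b₀ : G), (b₁ : G), (b₂ : G), (b₃ : G), c} : Set G), g ∈ K :=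
    fun g hg => Subgroup.subset_closure hg
  set L := K.subgroupOf D with hL
  have hLθ : ∀ d ∈ L, θ d ∈ L := by
    intro d hd
    rw [hL, Subgroup.mem_subgroupOf] at hd ⊢
    rw [hθ]
    exact K.mul_mem (K.mul_mem (hm c (by simp)) hd) (K.inv_mem (hm c (by simp)))
  have hLtop : L.map π = ⊤ := by
    refine (hinv _ ?_).resolve_left fun e => hb₀Z ((hπ b₀).1 (Subgroup.mem_bot.1 (e.le ⟨b₀, hm _ (by simp), rfl⟩)))
    rintro _ ⟨d, hd, rfl⟩
    exact ⟨θ d, hLθ d hd, rfl⟩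
  -- `K` is normal with commutative quotient
  have hDK : ∀ d : D, ∃ k : G, k ∈ K ∧ ∃ z : D, z ∈ Z ∧ (d : G) = k * z := by
    intro d
    obtain ⟨l, hl, hld⟩ := hLtop.ge (Subgroup.mem_top (π d))
    exact ⟨l, hl, l⁻¹ * d, QuotientGroup.eq.1 hld, by
      show (d : G) = (l : G) * ((l : G)⁻¹ * d); rw [mul_inv_cancel_left]⟩
  have hdec : ∀ g : G, ∃ k ∈ K, ∃ z : D, z ∈ Z ∧ g = k * z := by
    intro g
    obtain ⟨d, hd, y, hy, rfl⟩ := Subgroup.mem_sup_of_normal_left.1 (htop.ge (Subgroup.mem_top g))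
    obtain ⟨k, hk, z, hz, e⟩ := hDK ⟨d, hd⟩
    refine ⟨k * y, K.mul_mem hk (Subgroup.zpowers_le.2 (hm c (by simp)) hy), z, hz, ?_⟩
    change d = k * (z : G) at e
    rw [e, mul_assoc, (hcen z hz y).eq, mul_assoc]
  have hsub : commutator G ≤ K := by
    rw [commutator_eq_closure, Subgroup.closure_le]
    rintro _ ⟨g, g', rfl⟩
    obtain ⟨k, hk, z, hz, rfl⟩ := hdec g
    obtain ⟨k', hk', z', hz', rfl⟩ := hdec g'
    have e : ⁅k * (z : G), k' * (z' : G)⁆ = ⁅k, k'⁆ := by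
      simp only [commutatorElement_def, mul_inv_rev]
      calc k * z * (k' * z') * ((z : G)⁻¹ * k⁻¹) * ((z' : G)⁻¹ * k'⁻¹)
          = k * (z * (k' * z') * (z : G)⁻¹) * (k⁻¹ * (z' : G)⁻¹) * k'⁻¹ := by group
        _ = k * (k' * z') * ((z' : G)⁻¹ * k⁻¹) * k'⁻¹ := by
            rw [(hcen z hz (k' * z')).eq, mul_inv_cancel_right, ((hcen z' hz' k).inv_inv).symm.eq]
        _ = _ := by group
    rw [SetLike.mem_coe, e]
    exact K.mul_mem (K.mul_mem (K.mul_mem hk hk') (K.inv_mem hk)) (K.inv_mem hk')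
  rw [eq_top_iff, ← htop]
  exact sup_le (hDdef ▸ hsub) (Subgroup.zpowers_le.2 (hm c (by simp)))

end CfsgLib.Ext320
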